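import Cfsg.Agent.H4.ExtSyl
import Cfsg.Agent.H4.KGV
import Cfsg.Agent.H4.IndRep
import Cfsg.Agent.H3.Central
import Cfsg.Agent.H3.Quot
import Cfsg.Agent.H5.More

/-! Sums of squares of the degrees prime to `p` and Sylow normalizers. -/

set_option autoImplicit false
set_option linter.unusedSectionVars false
set_option linter.style.haveILetI false

namespace Cfsg.Agent.Hz

open Cfsg Cfsg.Agent.H3 Subgroup
open scoped commutatorElement ComplexConjugate

variable {G : Type*} [Group G] [Finite G] {p : ℕ} [hp : Fact p.Prime]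

/-- The irreducible characters of degree prime to `p`. -/
noncomputable def ppIrr (p : ℕ) (G : Type*) [Group G] [Finite G] : Finset (IrrCharacter G) :=
  Finset.univ.filter fun χ => ¬p ∣ charDegree χ.1

theorem mem_ppIrr {χ : IrrCharacter G} : χ ∈ ppIrr p G ↔ ¬p ∣ charDegree χ.1 := by simp [ppIrr]

/-- Degrees add up in the decomposition of a character. -/
theorem charDegree_eq_sum {χ : G → ℂ} (hχ : IsCharacter G χ) (n : IrrCharacter G → ℕ)
    (e : χ = ∑ ψ : IrrCharacter G, (n ψ : ℂ) • (ψ : G → ℂ)) :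
    charDegree χ = ∑ ψ : IrrCharacter G, n ψ * charDegree (ψ : G → ℂ) := by
  apply charDegree_eq
  rw [e, Finset.sum_apply]
  push_cast
  exact Finset.sum_congr rfl fun ψ _ => by rw [ψ.2.cast_charDegree]; rfl

/-- A character of degree prime to `p` has a constituent of degree prime to `p`. -/
theorem exists_constituent_pprime [Fintype G] {χ : G → ℂ} (hχ : IsCharacter G χ)
    (h : ¬p ∣ charDegree χ) :
    ∃ ψ : IrrCharacter G, classInner χ ψ ≠ 0 ∧ ¬p ∣ charDegree (ψ : G → ℂ) := by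
  by_contra hcon
  push Not at hcon
  obtain ⟨n, hn, e⟩ := hχ.exists_eq_sum_nat
  apply h
  rw [charDegree_eq_sum hχ n e]
  refine Finset.dvd_sum fun ψ _ => ?_
  by_cases h0 : n ψ = 0
  · simp [h0]
  · exact Dvd.dvd.mul_left (hcon ψ (by rw [hn]; exact_mod_cast h0)) _

/-- A normal subgroup on which an irreducible character has nonzero sum lies in the kernel. -/
theorem ker_of_sum_ne_zero {χ : G → ℂ} (hχ : IsIrrCharacter G χ) (D : Subgroup G) [D.Normal]
    [Fintype D] (h : ∑ d : D, χ d ≠ 0) : ∀ n ∈ D, χ n = χ 1 := by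
  classical
  by_contra hcon
  have := sum_eq_ite_of_normal hχ D 1
  rw [if_neg hcon] at this
  simp only [mul_one] at this
  exact h this

theorem sum_char_eq_nat {H : Type*} [Group H] [Fintype H] {χ : H → ℂ} (hχ : IsCharacter H χ) :
    ∃ n : ℕ, ∑ h, χ h = n * Nat.card H := by
  obtain ⟨n, hn⟩ := hχ.exists_nat_classInner isCharacter_one
  refine ⟨n, ?_⟩
  rw [← hn, classInner]
  simp only [Pi.one_apply, map_one, mul_one]
  have : (Nat.card H : ℂ) ≠ 0 := natCard_ne_zero
  field_simp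

/-- With a normal Sylow subgroup `P`, the characters of degree prime to `p` are those with `P'` in
the kernel. -/
theorem pprime_iff_ker (P : Subgroup G) [hP : P.Normal] (hPp : IsPGroup p P) (hi : ¬p ∣ P.index)
    (θ : IrrCharacter G) :
    ¬p ∣ charDegree (θ : G → ℂ) ↔ ∀ n ∈ ⁅P, P⁆, (θ : G → ℂ) n = (θ : G → ℂ) 1 := by
  classical
  have := Fintype.ofFinite G
  constructor
  · intro h
    have h1 := θ.2.isCharacter.restrict P
    obtain ⟨lam, h2, h3⟩ := exists_constituent_pprime (p := p) h1 h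
    have h4 : charDegree (lam : P → ℂ) = 1 := by
      obtain ⟨k, hk⟩ := hPp.exists_card_eq
      have h5 := lam.2.charDegree_dvd_card
      rw [hk, Nat.dvd_prime_pow hp.out] at h5
      obtain ⟨j, -, hj⟩ := h5
      rcases j with _ | j
      · simpa using hj
      · exact absurd (hj ▸ Dvd.intro_left _ rfl) h3
    have h5 : (lam : P → ℂ) 1 = 1 := by rw [← lam.2.cast_charDegree, h4, Nat.cast_one]
    obtain ⟨l, hl⟩ := lam.2.isCharacter.exists_unitsHom h5
    have h6 := h1.sub_irr lam.2 h2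
    have hle : ⁅P, P⁆ ≤ P := commutator_le_left _ _
    obtain ⟨n, hn⟩ := sum_char_eq_nat (h6.comp (inclusion hle))
    have h7 : ∀ d : (⁅P, P⁆ : Subgroup G), (lam : P → ℂ) (inclusion hle d) = 1 := fun d => by
      have h8 : inclusion hle d ∈ commutator P := by
        have : (d : G) ∈ (commutator P).map P.subtype := by
          rw [_root_.commutator_def, map_commutator, ← MonoidHom.range_eq_map, range_subtype]
          exact d.2
        obtain ⟨x, hx, e⟩ := this
        have : x = inclusion hle d := Subtype.ext e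
        exact this ▸ hx
      rw [hl]
      have := Abelianization.commutator_subset_ker l h8
      rw [MonoidHom.mem_ker] at this
      simp [this]
    refine ker_of_sum_ne_zero θ.2 _ fun h0 => ?_
    simp only [Pi.sub_apply, h7, Finset.sum_sub_distrib, coe_inclusion, h0, Finset.sum_const,
      Finset.card_univ, nsmul_eq_mul, mul_one, ← Nat.card_eq_fintype_card] at hn
    have h9 : ((n + 1 : ℕ) : ℂ) * Nat.card (⁅P, P⁆ : Subgroup G) = 0 := by
      push_cast; linear_combination -hn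
    exact mul_ne_zero (Nat.cast_ne_zero.2 n.succ_ne_zero) natCard_ne_zero h9
  · intro hθ e
    obtain ⟨θ', h1, h2⟩ := θ.2.exists_quotient ⁅P, P⁆ hθ
    haveI := hP.map _ (QuotientGroup.mk'_surjective ⁅P, P⁆)
    have h3 := H4.degree_dvd_index_of_abelian_normal h1 (P.map (QuotientGroup.mk' ⁅P, P⁆)) (by
      rintro _ ⟨a, ha, rfl⟩ _ ⟨b, hb, rfl⟩
      rw [← commutatorElement_eq_one_iff_mul_comm, ← map_commutatorElement]
      exact (QuotientGroup.eq_one_iff _).2 (commutator_mem_commutator ha hb))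
      ((h2 1).trans θ.2.cast_charDegree.symm)
    exact hi ((e.trans h3).trans (index_map_dvd _ (QuotientGroup.mk'_surjective _)))

theorem sum_pprime_sq_of_normal (P : Subgroup G) [hP : P.Normal] (hPp : IsPGroup p P)
    (hi : ¬p ∣ P.index) :
    Nat.card (⁅P, P⁆ : Subgroup G) * ∑ θ ∈ ppIrr p G, charDegree θ.1 ^ 2 = Nat.card G := by
  classical
  rw [ppIrr, Finset.filter_congr fun θ _ => pprime_iff_ker P hPp hi θ, H4.sum_irr_filter_ker,
    card_eq_card_quotient_mul_card_subgroup ⁅P, P⁆, mul_comm, ← sum_irrDeg_sq (G := G ⧸ ⁅P, P⁆)]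
  congr 1
  exact Finset.sum_congr rfl fun φ _ => by rw [irrDeg_eq_charDegree]; rfl

/-- The multiplicities of the restrictions. -/
theorem exists_mult (N : Subgroup G) [Fintype N] :
    ∃ m : IrrCharacter G → IrrCharacter N → ℕ,
      (∀ (χ : IrrCharacter G) (θ : IrrCharacter N),
        classInner (fun x : N => χ.1 x) θ.1 = m χ θ) ∧
      (∀ χ : IrrCharacter G, charDegree χ.1 = ∑ θ, m χ θ * charDegree θ.1) ∧
      ∀ θ, ∑ χ, m χ θ * charDegree χ.1 = N.index * charDegree θ.1 := by
  classical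
  have := Fintype.ofFinite G
  choose m hm he using fun χ : IrrCharacter G => (χ.2.isCharacter.restrict N).exists_eq_sum_nat
  refine ⟨m, hm, fun χ => charDegree_eq_sum (χ.2.isCharacter.restrict N) _ (he χ), fun θ => ?_⟩
  have h1 := H4.isCharacter_indFun N θ.2.isCharacter
  obtain ⟨n, hn, e⟩ := h1.exists_eq_sum_nat
  have h2 : ∀ χ, n χ = m χ θ := fun χ => by
    have h3 := hn χ
    rw [H4.frobenius_recip N _ χ.2.isClassFunction,
      θ.2.isCharacter.classInner_comm (χ.2.isCharacter.restrict N), hm] at h3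
    exact_mod_cast h3.symm
  have h3 := charDegree_eq_sum h1 n e
  simp only [h2] at h3
  rw [← h3]
  apply charDegree_eq
  rw [H4.indFun_one, Nat.cast_mul, θ.2.cast_charDegree]

/-- The inequality and its case of equality, for any subgroup of index prime to `p`. -/
theorem sum_sq_le (N : Subgroup G) (hi : ¬p ∣ N.index) :
    (∑ θ ∈ ppIrr p N, charDegree θ.1 ^ 2 ≤ ∑ χ ∈ ppIrr p G, charDegree χ.1 ^ 2) ∧
    ((∑ θ ∈ ppIrr p N, charDegree θ.1 ^ 2 = ∑ χ ∈ ppIrr p G, charDegree χ.1 ^ 2) →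
      ∀ θ : IrrCharacter N, ¬p ∣ charDegree (θ : N → ℂ) →
        ∃ χ : IrrCharacter G, ∀ x : N, (χ : G → ℂ) x = (θ : N → ℂ) x) := by
  classical
  have := Fintype.ofFinite N
  obtain ⟨m, hm, h1, h2⟩ := exists_mult N
  set A := ppIrr p G with hA
  set B := ppIrr p N with hB
  have h3 : ∀ θ ∈ B, ∃ χ ∈ A, m χ θ ≠ 0 := fun θ hθ => by
    by_contra hcon
    push Not at hcon
    have h4 : p ∣ N.index * charDegree (θ : N → ℂ) := by
      rw [← h2]
      refine Finset.dvd_sum fun χ _ => ?_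
      by_cases h5 : χ ∈ A
      · simp [hcon χ h5]
      · exact Dvd.dvd.mul_left (by simpa [hA, mem_ppIrr] using h5) _
    rcases hp.out.dvd_mul.1 h4 with h | h
    · exact hi h
    · exact mem_ppIrr.1 hθ h
  have h4 : ∀ χ θ, m χ θ * charDegree (θ : N → ℂ) ≤ charDegree (χ : G → ℂ) := fun χ θ => by
    rw [h1 χ]
    exact Finset.single_le_sum (f := fun θ => m χ θ * charDegree (θ : N → ℂ))
      (fun _ _ => Nat.zero_le _) (Finset.mem_univ θ)
  have h5 : ∀ θ, ∀ χ ∈ A, m χ θ * charDegree (χ : G → ℂ) ≤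
      ∑ χ ∈ A, m χ θ * charDegree (χ : G → ℂ) := fun θ χ hχ =>
    Finset.single_le_sum (f := fun χ => m χ θ * charDegree (χ : G → ℂ))
      (fun _ _ => Nat.zero_le _) hχ
  have h6 : ∀ θ ∈ B, charDegree (θ : N → ℂ) ^ 2 ≤
      charDegree (θ : N → ℂ) * ∑ χ ∈ A, m χ θ * charDegree (χ : G → ℂ) := fun θ hθ => by
    obtain ⟨χ, hχ, h⟩ := h3 θ hθ
    rw [sq]
    refine Nat.mul_le_mul_left _ (le_trans ?_ (h5 θ χ hχ))
    have := Nat.pos_of_ne_zero h
    exact ((Nat.le_mul_of_pos_left _ this).trans (h4 χ θ)).trans (Nat.le_mul_of_pos_left _ this)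
  have h7 : ∑ θ ∈ B, charDegree (θ : N → ℂ) * ∑ χ ∈ A, m χ θ * charDegree (χ : G → ℂ) ≤
      ∑ χ ∈ A, charDegree (χ : G → ℂ) ^ 2 := by
    simp only [Finset.mul_sum]
    rw [Finset.sum_comm]
    refine Finset.sum_le_sum fun χ _ => ?_
    rw [sq]
    nth_rewrite 2 [h1 χ]
    rw [Finset.sum_mul]
    refine le_trans (Finset.sum_le_sum_of_subset (Finset.subset_univ B)) (le_of_eq ?_)
    exact Finset.sum_congr rfl fun θ _ => by ring
  refine ⟨(Finset.sum_le_sum h6).trans h7, fun e θ hθ => ?_⟩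
  have hθ' : θ ∈ B := mem_ppIrr.2 hθ
  have h8 := (Finset.sum_eq_sum_iff_of_le h6).1
    (le_antisymm (Finset.sum_le_sum h6) (h7.trans e.ge)) θ hθ'
  rw [sq] at h8
  have h9 := Nat.eq_of_mul_eq_mul_left θ.2.charDegree_pos h8
  obtain ⟨χ, hχ, h⟩ := h3 θ hθ'
  have h10 := Nat.pos_of_ne_zero h
  have h11 : charDegree (χ : G → ℂ) = charDegree (θ : N → ℂ) :=
    le_antisymm ((Nat.le_mul_of_pos_left _ h10).trans ((h5 θ χ hχ).trans h9.ge))
      ((Nat.le_mul_of_pos_left _ h10).trans (h4 χ θ))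
  have h12 := (χ.2.isCharacter.restrict N).sub_irr θ.2 (by rw [hm]; exact_mod_cast h)
  have h13 := h12.eq_zero_of_apply_one (by
    simp only [Pi.sub_apply, OneMemClass.coe_one]
    rw [← χ.2.cast_charDegree, ← θ.2.cast_charDegree, h11, sub_self])
  exact ⟨χ, fun x => sub_eq_zero.1 (congrFun h13 x)⟩

/-- A normal subgroup on which a `p`-subgroup has no nontrivial fixed points lies in the kernel of
the characters of degree prime to `p`. -/
theorem ker_of_fixedPointFree (P K : Subgroup G) [hK : K.Normal] (hP : IsPGroup p P)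
    (h : ∀ k ∈ K, (∀ u ∈ P, u * k * u⁻¹ = k) → k = 1) (χ : IrrCharacter G)
    (hχ : ¬p ∣ charDegree (χ : G → ℂ)) : ∀ n ∈ K, (χ : G → ℂ) n = (χ : G → ℂ) 1 := by
  classical
  have := Fintype.ofFinite G
  obtain ⟨M, hM⟩ := H5.exists_isPModular p
  have := hM.2.1
  have := H5.charP_res hM
  refine ker_of_sum_ne_zero χ.2 K fun h0 => hχ ?_
  letI : MulAction P K := MulAction.compHom K ((MulAut.conjNormal (H := K)).comp P.subtype)
  have hs : ∀ (u : P) (k : K), ((u • k : K) : G) = u * k * (u : G)⁻¹ := fun _ _ => rfl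
  have h1 := H5.sum_eq_sum_fixedPoints (X := K) hP (A := H5.Res M)
    (fun a => by rw [nsmul_eq_mul, CharP.cast_eq_zero, zero_mul])
    (fun k => H5.red M ((χ : G → ℂ) k)) (fun u k => by rw [hs, χ.2.isClassFunction])
  rw [← H5.red_sum _ fun k _ => H5.irr_mem χ _, h0, H5.red_zero,
    Finset.sum_eq_single_of_mem (1 : K)] at h1
  · rw [← H5.red_natCast_eq_zero_iff (M := M), χ.2.cast_charDegree]
    exact h1.symm
  · simp only [Finset.mem_filter, Finset.mem_univ, true_and]
    exact fun u => Subtype.ext (by simp [hs])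
  · intro k hk h1
    simp only [Finset.mem_filter, Finset.mem_univ, true_and] at hk
    exact absurd (Subtype.ext (h k k.2 fun u hu => congrArg Subtype.val (hk ⟨u, hu⟩))) h1

theorem sum_sq_eq_of_complement (P : Subgroup G) (hP : IsPGroup p P) (K : Subgroup G)
    [hK : K.Normal] (h2 : K ⊓ normalizer (P : Set G) = ⊥) (h1 : K ⊔ normalizer (P : Set G) = ⊤) :
    ∑ θ ∈ ppIrr p (normalizer (P : Set G)), charDegree θ.1 ^ 2 =
      ∑ χ ∈ ppIrr p G, charDegree χ.1 ^ 2 := by
  have hc : K.IsComplement' (normalizer (P : Set G)) :=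
    isComplement'_of_disjoint_and_mul_eq_univ (disjoint_iff.2 h2)
      (by rw [← normal_mul, h1, coe_top])
  let f := hc.symm.QuotientMulEquiv.toMonoidHom.comp (QuotientGroup.mk' K)
  have hf : Function.Surjective f :=
    hc.symm.QuotientMulEquiv.surjective.comp (QuotientGroup.mk'_surjective K)
  have hk : f.ker = K := by
    ext x
    simp [f, MonoidHom.mem_ker]
  have hd : ∀ θ, charDegree (inflIrr f hf θ : G → ℂ) = charDegree θ.1 := fun θ => by
    apply charDegree_eq
    rw [inflIrr_apply, map_one, θ.2.cast_charDegree]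
  refine Finset.sum_bij (fun θ _ => inflIrr f hf θ) (fun θ hθ => ?_)
    (fun _ _ _ _ e => inflIrr_injective f hf e) (fun χ hχ => ?_) fun θ _ => by rw [hd]
  · rwa [mem_ppIrr, hd, ← mem_ppIrr]
  · rw [mem_ppIrr] at hχ
    obtain ⟨θ, rfl⟩ := exists_inflIrr_eq f hf (ψ := χ) (by
      rw [hk]
      refine ker_of_fixedPointFree P K hP (fun k hk h => ?_) χ hχ
      have : k ∈ K ⊓ normalizer (P : Set G) := ⟨hk, centralizer_le_normalizer _
        (mem_centralizer_iff.2 fun u hu => by rw [← mul_inv_eq_iff_eq_mul]; exact h u hu)⟩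
      rwa [h2, mem_bot] at this)
    exact ⟨θ, by rwa [mem_ppIrr, ← hd], rfl⟩

theorem card_commutator_subgroupOf {P N : Subgroup G} (h : P ≤ N) :
    Nat.card (⁅P.subgroupOf N, P.subgroupOf N⁆ : Subgroup N) = Nat.card (commutator P) := by
  rw [← card_map_of_injective N.subtype_injective, map_commutator, map_subgroupOf_eq_of_le h,
    ← card_map_of_injective (K := commutator P) P.subtype_injective, _root_.commutator_def,
    map_commutator, ← MonoidHom.range_eq_map, range_subtype]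

theorem finsum_pprime :
    ∑ᶠ χ : {χ : IrrCharacter G // ¬p ∣ charDegree (χ : G → ℂ)}, charDegree (χ.1 : G → ℂ) ^ 2 =
      ∑ χ ∈ ppIrr p G, charDegree χ.1 ^ 2 := by
  rw [finsum_eq_sum_of_fintype]
  exact (Finset.sum_subtype _ (fun _ => mem_ppIrr) fun χ : IrrCharacter G => charDegree (χ : G → ℂ) ^ 2).symm

theorem sum_sq_main (P : Sylow p G) :
    Nat.card (normalizer ((P : Subgroup G) : Set G)) ≤ Nat.card (commutator ↥P) *
      (∑ᶠ χ : {χ : IrrCharacter G // ¬p ∣ charDegree (χ : G → ℂ)}, charDegree (χ.1 : G → ℂ) ^ 2) ∧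
    (Nat.card (normalizer ((P : Subgroup G) : Set G)) = Nat.card (commutator ↥P) *
      (∑ᶠ χ : {χ : IrrCharacter G // ¬p ∣ charDegree (χ : G → ℂ)}, charDegree (χ.1 : G → ℂ) ^ 2) ↔
      ∃ K : Subgroup G, K.Normal ∧ K ⊓ normalizer ((P : Subgroup G) : Set G) = ⊥ ∧
        K ⊔ normalizer ((P : Subgroup G) : Set G) = ⊤) := by
  classical
  have hPN : (P : Subgroup G) ≤ normalizer ((P : Subgroup G) : Set G) := le_normalizer
  haveI : ((P : Subgroup G).subgroupOf (normalizer ((P : Subgroup G) : Set G))).Normal :=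
    normal_in_normalizer
  have h1 := sum_pprime_sq_of_normal
    ((P : Subgroup G).subgroupOf (normalizer ((P : Subgroup G) : Set G))) (P.subtype hPN).2
    (P.subtype hPN).not_dvd_index
  rw [card_commutator_subgroupOf hPN] at h1
  obtain ⟨h2, h3⟩ := sum_sq_le (p := p) (normalizer ((P : Subgroup G) : Set G))
    fun h => P.not_dvd_index (h.trans (index_dvd_of_le hPN))
  rw [finsum_pprime, ← h1]
  refine ⟨Nat.mul_le_mul_left _ h2, fun e => ?_, fun ⟨K, hK, h4, h5⟩ => ?_⟩
  · obtain ⟨K, hK, h4, h5⟩ := H4.exists_complement_of_extend P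
      (h3 (Nat.eq_of_mul_eq_mul_left Nat.card_pos e))
    exact ⟨K, hK, h5, h4⟩
  · rw [sum_sq_eq_of_complement (P : Subgroup G) P.2 K h4 h5]
    rfl

end Cfsg.Agent.Hz
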