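import Cfsg.Agent.H3.BlkMisc
import Cfsg.Agent.H3.Galois
import Cfsg.Agent.H3.FS
import Cfsg.Agent.H5.Height

/-! Numerical lemmas for principal blocks with few characters of height zero. -/

set_option autoImplicit false
set_option linter.unusedSectionVars false
set_option linter.style.haveILetI false

namespace Cfsg.Agent.Hz

open Cfsg Cfsg.Agent.H3 Cfsg.Agent.H5 Subgroup
open scoped ComplexConjugate

section Num

variable {X : Type*} [Fintype X] {p : ℕ}

theorem eq_three_of_dvd (hp : p.Prime) (h : (p : ℤ) ∣ 3) : p = 3 :=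
  (Nat.prime_dvd_prime_iff_eq hp Nat.prime_three).1 (by exact_mod_cast h)

theorem not_dvd_one_int (hp : p.Prime) : ¬(p : ℤ) ∣ 1 := fun h =>
  hp.one_lt.ne' (Nat.dvd_one.1 (by exact_mod_cast h))

theorem numA [Nonempty X] (hp : p.Prime) (s : X → ℤ) (a : ℤ)
    (h2 : ∑ x, s x ^ 2 = 2 * Fintype.card X)
    (h : ∀ x, (p : ℤ) ∣ 1 + a * s x) (h1 : (p : ℤ) ∣ 1 + 2 * a ^ 2) : p = 3 := by
  obtain ⟨x, -, hx⟩ := Finset.exists_le_of_sum_le (s := Finset.univ) (f := fun x => s x ^ 2)
    (g := fun _ => 2) Finset.univ_nonempty (by rw [h2]; simp [mul_comm])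
  have h3 := h x
  have h4 : s x ≠ 0 := fun e => not_dvd_one_int hp (by simpa [e] using h3)
  have h5 : s x = 1 ∨ s x = -1 := by
    have : -2 < s x := by nlinarith
    have : s x < 2 := by nlinarith
    omega
  refine eq_three_of_dvd hp ?_
  rcases h5 with e | e <;> rw [e] at h3
  · exact (h1.add ((h3.mul_right (1 - a)).mul_left 2)).trans (dvd_of_eq (by ring))
  · exact (h1.add ((h3.mul_right (1 + a)).mul_left 2)).trans (dvd_of_eq (by ring))

theorem numB' [Nonempty X] (hp : p.Prime) (hp2 : p ≠ 2) (u v : X → ℤ) (a b ε : ℤ)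
    (hε : ε = 1 ∨ ε = -1) (hu : ∑ x, u x ^ 2 = Fintype.card X)
    (hv : ∑ x, v x ^ 2 = Fintype.card X) (hu0 : ∑ x, u x = 0)
    (h : ∀ x, (p : ℤ) ∣ 1 + a * u x + b * v x) (h1 : (p : ℤ) ∣ 1 + a ^ 2 + b ^ 2)
    (h2 : (p : ℤ) ∣ 1 + a * ε) : p = 3 := by
  have hε2 : ε ^ 2 = 1 := by rcases hε with e | e <;> simp [e]
  have h3 : (p : ℤ) ∣ b ^ 2 + 2 := (h1.add (h2.mul_right (1 - a * ε))).trans
    (dvd_of_eq (by linear_combination (-a ^ 2) * hε2))
  have h4 : ∀ x, (p : ℤ) ∣ (ε * u x - 1) ^ 2 + 2 * v x ^ 2 := fun x => by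
    have h5 : (p : ℤ) ∣ b * v x - (ε * u x - 1) := ((h x).sub (h2.mul_right (ε * u x))).trans
      (dvd_of_eq (by linear_combination (-a * u x) * hε2))
    exact ((h3.mul_right (v x ^ 2)).sub (h5.mul_right (b * v x + (ε * u x - 1)))).trans
      (dvd_of_eq (by ring))
  by_cases h11 : 11 ≤ p
  · exfalso
    have h5 : ∀ x, -44 * (ε * u x - 1) ≤
        11 * (ε * u x - 1) ^ 2 + 4 * ((ε * u x - 1) ^ 2 + 2 * v x ^ 2) := fun x => by
      generalize hs : ε * u x - 1 = s
      have h6 := h4 x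
      rw [hs] at h6
      rcases (show 0 ≤ s ^ 2 + 2 * v x ^ 2 by positivity).eq_or_lt with e | e
      · have : s = 0 := by nlinarith [sq_nonneg s, sq_nonneg (v x)]
        rw [← e, this]; simp
      · have h7 := Int.le_of_dvd e h6
        have : (11 : ℤ) ≤ p := by exact_mod_cast h11
        nlinarith [sq_nonneg (s + 2)]
    have h6 := Finset.sum_le_sum fun x (_ : x ∈ Finset.univ) => h5 x
    have h7 : ∀ x, 11 * (ε * u x - 1) ^ 2 + 4 * ((ε * u x - 1) ^ 2 + 2 * v x ^ 2) =
        15 * u x ^ 2 - 30 * ε * u x + 15 + 8 * v x ^ 2 := fun x => by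
      linear_combination 15 * u x ^ 2 * hε2
    have h8 : ∀ x, -44 * (ε * u x - 1) = -44 * ε * u x + 44 := fun x => by ring
    simp only [h7, h8, Finset.sum_add_distrib, Finset.sum_sub_distrib, ← Finset.mul_sum, hu, hv,
      hu0, Finset.sum_const, Finset.card_univ, nsmul_eq_mul] at h6
    have : (0 : ℤ) < Fintype.card X := by exact_mod_cast Fintype.card_pos
    linarith
  · push Not at h11
    have h5 : ∀ q : ℕ, (q : ℤ) ∣ b ^ 2 + 2 → ((b : ZMod q) ^ 2 + 2 = 0) := fun q hq => by
      have := (ZMod.intCast_zmod_eq_zero_iff_dvd _ q).2 hq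
      push_cast at this
      exact this
    have h6 : ∀ c : ZMod 5, c ^ 2 + 2 ≠ 0 := by decide
    have h7 : ∀ c : ZMod 7, c ^ 2 + 2 ≠ 0 := by decide
    interval_cases p
    all_goals first
      | rfl
      | exact absurd rfl hp2
      | exact absurd (h5 5 h3) (h6 _)
      | exact absurd (h5 7 h3) (h7 _)
      | exact absurd hp (by norm_num)

theorem numB [Nonempty X] (hp : p.Prime) (hp2 : p ≠ 2) (u v : X → ℤ) (a b : ℤ)
    (hu : ∑ x, u x ^ 2 = Fintype.card X) (hv : ∑ x, v x ^ 2 = Fintype.card X)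
    (hu0 : ∑ x, u x = 0) (hv0 : ∑ x, v x = 0) (h : ∀ x, (p : ℤ) ∣ 1 + a * u x + b * v x)
    (x₀ : X) (ha : u x₀ = a) (hb : v x₀ = b) : p = 3 := by
  have h1 : (p : ℤ) ∣ 1 + a ^ 2 + b ^ 2 := by
    have := h x₀
    rw [ha, hb] at this
    exact this.trans (dvd_of_eq (by ring))
  by_cases h2 : ∀ x, 2 ≤ u x ^ 2 + v x ^ 2
  · have h3 := (Finset.sum_eq_sum_iff_of_le (s := Finset.univ) fun x _ => h2 x).1 (by
      rw [Finset.sum_add_distrib, hu, hv]; simp; ring) x₀ (Finset.mem_univ _)
    rw [ha, hb] at h3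
    exact eq_three_of_dvd hp (h1.trans (dvd_of_eq (by linarith)))
  · push Not at h2
    obtain ⟨x, hx⟩ := h2
    have h3 := h x
    have h4 : -2 < u x ∧ u x < 2 := ⟨by nlinarith [sq_nonneg (v x)], by nlinarith [sq_nonneg (v x)]⟩
    have h5 : -2 < v x ∧ v x < 2 := ⟨by nlinarith [sq_nonneg (u x)], by nlinarith [sq_nonneg (u x)]⟩
    by_cases h6 : v x = 0
    · have h7 : u x ≠ 0 := fun e => not_dvd_one_int hp (by simpa [e, h6] using h3)
      exact numB' hp hp2 u v a b (u x) (by omega) hu hv hu0 h h1 (by simpa [h6] using h3)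
    · have h7 : u x = 0 := by
        by_contra h7
        have : 0 < u x ^ 2 := by positivity
        have : 0 < v x ^ 2 := by positivity
        omega
      exact numB' hp hp2 v u b a (v x) (by omega) hv hu hv0
        (fun y => (h y).trans (dvd_of_eq (by ring))) (h1.trans (dvd_of_eq (by ring)))
        (by simpa [h7] using h3)

theorem numT (T : X → ℤ) (h1 : ∑ x, T x = Fintype.card X) (h2 : ∑ x, T x ^ 2 = 3 * Fintype.card X)
    (h : ∀ x, 3 ∣ T x) (x : X) : T x = 0 ∨ T x = 3 := by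
  have h3 : ∀ x, 3 * T x ≤ T x ^ 2 := fun x => by
    obtain ⟨t, e⟩ := h x
    rw [e]
    rcases le_or_gt t 0 with h | h <;> nlinarith
  have h4 := (Finset.sum_eq_sum_iff_of_le (s := Finset.univ) fun x _ => h3 x).1 (by
    rw [← Finset.mul_sum, h1, h2]) x (Finset.mem_univ _)
  have h5 : T x * (T x - 3) = 0 := by linear_combination -h4
  rcases mul_eq_zero.1 h5 with e | e
  · exact Or.inl e
  · exact Or.inr (by linarith)

end Num

variable {G : Type*} [Group G] [Finite G]

/-- A homomorphism on a `p`-group which kills no nontrivial central element is injective. -/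
theorem injective_of_center {p : ℕ} [Fact p.Prime] (hG : IsPGroup p G) {A : Type*} [Group A]
    (l : G →* A) (h : ∀ z ∈ center G, l z = 1 → z = 1) : Function.Injective l := by
  rw [← MonoidHom.ker_eq_bot_iff]
  by_contra h1
  obtain ⟨z, h2, h3, h4⟩ := exists_mem_center_of_normal hG l.ker h1
  exact h3 (h z h4 h2)

theorem eq_one_of_add_conj {w : ℂ} (hw : ‖w‖ = 1) (h : w + conj w = 2) : w = 1 := by
  have h1 : w.re = 1 := by
    have := congrArg Complex.re h
    simp at this
    linarith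
  have h2 := Complex.sq_norm w
  rw [hw, Complex.normSq_apply, h1] at h2
  exact Complex.ext h1 (by simpa using (by nlinarith : w.im * w.im = 0))

/-- A generalized character of a `3`-group with values `0` and `3`. -/
theorem card_eq_three_of_gen [Nontrivial G] (hG : IsPGroup 3 G) {η : G → ℂ}
    (hη : IsGeneralizedCharacter G η) (hv : ∀ x, η x = 0 ∨ η x = 3) (h1 : η 1 = 3)
    (hz : ∀ z ∈ center G, z ≠ 1 → η z = 0) : Nat.card G = 3 := by
  classical
  haveI : Fact (Nat.Prime 3) := ⟨Nat.prime_three⟩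
  have := Fintype.ofFinite G
  have hodd : Odd (Nat.card G) := by
    obtain ⟨k, hk⟩ := hG.exists_card_eq
    rw [hk]; exact Odd.pow (by decide)
  obtain ⟨c, hc, e⟩ := hη.exists_eq_sum_int
  have hN : (Nat.card G : ℂ) ≠ 0 := natCard_ne_zero
  set S := (Finset.univ.filter fun x => η x = 3) with hS
  have hsum : ∑ x, η x = 3 * S.card := by
    rw [hS, Finset.card_filter, Nat.cast_sum, Finset.mul_sum]
    refine Finset.sum_congr rfl fun x _ => ?_
    rcases hv x with h | h <;> simp [h]
  have hn : c (irrOne G) * Nat.card G = 3 * S.card := by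
    have h2 := hc (irrOne G)
    simp only [classInner, irrOne_apply, map_one, mul_one, hsum] at h2
    have : (c (irrOne G) : ℂ) * Nat.card G = 3 * S.card := by rw [← h2]; field_simp
    exact_mod_cast this
  have hsq : ∑ ψ, c ψ ^ 2 = 3 * c (irrOne G) := by
    have h2 := hη.classInner_self_eq_sum_sq c hc
    have h3 : classInner η η = 3 * classInner η (irrOne G).1 := by
      simp only [classInner, irrOne_apply, map_one, mul_one]
      rw [mul_left_comm, Finset.mul_sum Finset.univ _ (3 : ℂ)]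
      congr 1
      refine Finset.sum_congr rfl fun x _ => ?_
      rcases hv x with h | h <;> simp [h, map_ofNat]
    rw [h3, hc] at h2
    exact_mod_cast h2.symm
  have hS1 : (1 : G) ∈ S := by simp [hS, h1]
  have hS0 : 0 < S.card := Finset.card_pos.2 ⟨1, hS1⟩
  have hS2 : S.card < Nat.card G := by
    obtain ⟨⟨z, hz1⟩, hz2⟩ := @exists_ne _ hG.center_nontrivial 1
    rw [Nat.card_eq_fintype_card]
    refine Finset.card_lt_univ_of_notMem (x := z) ?_
    simp [hS, hz z hz1 fun h => hz2 (Subtype.ext h)]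
  have hn12 : c (irrOne G) = 1 ∨ c (irrOne G) = 2 := by
    have h2 : (0 : ℤ) < S.card := by exact_mod_cast hS0
    have h3 : (S.card : ℤ) < Nat.card G := by exact_mod_cast hS2
    have : 0 < c (irrOne G) := by nlinarith
    have : c (irrOne G) < 3 := by nlinarith
    omega
  have hrest : ∑ ψ ∈ Finset.univ.erase (irrOne G), c ψ ^ 2 = 2 := by
    rw [← Finset.add_sum_erase _ _ (Finset.mem_univ (irrOne G))] at hsq
    rcases hn12 with h | h <;> rw [h] at hsq <;> linarith
  obtain ⟨α, hα, hα0⟩ : ∃ α ∈ Finset.univ.erase (irrOne G), c α ^ 2 ≠ 0 :=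
    Finset.exists_ne_zero_of_sum_ne_zero (by rw [hrest]; decide)
  let β : IrrCharacter G := ⟨fun g => conj (α.1 g), α.2.conj⟩
  have hα1 : α ≠ irrOne G := (Finset.mem_erase.1 hα).1
  have hβα : β ≠ α := fun h => hα1 (Subtype.ext (α.2.eq_one_of_real_of_odd hodd fun g =>
    Complex.conj_eq_iff_im.mp (congrFun (congrArg Subtype.val h) g)))
  have hβ1 : β ≠ irrOne G := fun h => hα1 (Subtype.ext (funext fun g => by
    have h2 : conj (α.1 g) = 1 := congrFun (congrArg Subtype.val h) g
    rw [← Complex.conj_conj (α.1 g), h2, map_one]; rfl))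
  have hcβ : c β = c α := by
    have h2 := classInner_conj_conj η α.1
    have h3 : (fun g => conj (η g)) = η := funext fun g => by
      rcases hv g with h | h <;> simp [h, map_ofNat]
    rw [h3, ← hη.classInner_comm α.2.isGeneralizedCharacter, hc α] at h2
    have h4 := hc β
    rw [show (β : G → ℂ) = fun g => conj (α.1 g) from rfl, h2] at h4
    exact_mod_cast h4.symm
  have hβm : β ∈ (Finset.univ.erase (irrOne G)).erase α := by simp [hβα, hβ1]
  rw [← Finset.add_sum_erase _ _ hα, ← Finset.add_sum_erase _ _ hβm, hcβ] at hrest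
  have h5 : 0 ≤ ∑ ψ ∈ ((Finset.univ.erase (irrOne G)).erase α).erase β, c ψ ^ 2 :=
    Finset.sum_nonneg fun _ _ => sq_nonneg _
  have h6 : 0 < c α ^ 2 := lt_of_le_of_ne (sq_nonneg _) hα0.symm
  have h7 : ∑ ψ ∈ ((Finset.univ.erase (irrOne G)).erase α).erase β, c ψ ^ 2 = 0 := by linarith
  have h8 : c α ^ 2 = 1 := by linarith
  have h9 : ∀ g, η g = c (irrOne G) + c α * (α.1 g + conj (α.1 g)) := fun g => by
    rw [e, Finset.sum_apply, ← Finset.add_sum_erase _ _ (Finset.mem_univ (irrOne G)),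
      ← Finset.add_sum_erase _ _ hα, ← Finset.add_sum_erase _ _ hβm, hcβ, Finset.sum_eq_zero]
    · simp [β]; ring
    · intro ψ hψ
      have := (Finset.sum_eq_zero_iff_of_nonneg fun _ _ => sq_nonneg _).1 h7 ψ hψ
      simp [pow_eq_zero_iff (two_ne_zero) |>.1 this]
  obtain ⟨d, hd0, hd⟩ := α.2.exists_apply_one
  have h10 : (3 : ℤ) = c (irrOne G) + c α * (d + d) := by
    have := h9 1
    rw [h1, hd, map_natCast] at this
    exact_mod_cast this
  have h11 : c α = 1 ∨ c α = -1 := sq_eq_one_iff.1 h8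
  have h12 : c (irrOne G) = 1 ∧ c α = 1 ∧ d = 1 := by
    rcases h11 with h | h <;> rw [h] at h10 <;> omega
  obtain ⟨h13, h14, rfl⟩ := h12
  have hd1 : α.1 1 = 1 := by rw [hd, Nat.cast_one]
  obtain ⟨l, hl⟩ := α.2.isCharacter.exists_unitsHom hd1
  have h15 : ∀ g, η g = 1 + (l g + conj (l g : ℂ)) := fun g => by
    rw [h9, h13, h14, hl]; simp
  have h16 := injective_of_center hG l fun z hz1 h => by
    by_contra h2
    have := hz z hz1 h2
    rw [h15, h] at this
    norm_num at this
  have h17 : S = {1} := by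
    refine Finset.eq_singleton_iff_unique_mem.2 ⟨hS1, fun x hx => h16 ?_⟩
    have h2 : η x = 3 := (Finset.mem_filter.1 hx).2
    rw [h15] at h2
    have h3 := H4.norm_linear_char α.2.isCharacter hd1 x
    rw [hl] at h3
    rw [map_one]
    exact Units.ext (eq_one_of_add_conj h3 (by linear_combination h2))
  rw [h13, h17, Finset.card_singleton] at hn
  exact_mod_cast (by simpa using hn : (Nat.card G : ℤ) = 3)

end Cfsg.Agent.Hz
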