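import Cfsg.Agent.Hz.B
import Cfsg.Agent.H5.DefectOne

/-! Principal blocks with few characters of height zero. -/

set_option autoImplicit false
set_option linter.unusedSectionVars false
set_option linter.style.haveILetI false

namespace Cfsg.Agent.Hz

open Cfsg Cfsg.Agent.H3 Cfsg.Agent.H5 Subgroup
open scoped ComplexConjugate

variable {M : Ideal AlgInt} [hMm : M.IsMaximal] {G : Type*} [Group G] [Finite G]
  {p : ℕ} [hp : Fact p.Prime] [CharP (Res M) p]

open Classical in
/-- The characters of height zero in the principal block. -/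
noncomputable def hz0 (M : Ideal AlgInt) (p : ℕ) (G : Type*) [Group G] [Finite G] :
    Finset (IrrCharacter G) :=
  Finset.univ.filter fun χ => χ ∈ principalBlock M G ∧ ¬p ∣ charDegree χ.1

theorem mem_hz0 {χ : IrrCharacter G} :
    χ ∈ hz0 M p G ↔ χ ∈ principalBlock M G ∧ ¬p ∣ charDegree χ.1 := by simp [hz0]

theorem card_hz0 : Nat.card {χ : IrrCharacter G // χ ∈ principalBlock M G ∧
    ¬p ∣ charDegree (χ : G → ℂ)} = (hz0 M p G).card :=
  Nat.subtype_card _ fun _ => mem_hz0

theorem charDegree_irrOne : charDegree (irrOne G).1 = 1 := H3.charDegree_eq (by simp)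

theorem irrOne_mem_hz0 : irrOne G ∈ hz0 M p G :=
  mem_hz0.2 ⟨irrOne_mem_principalBlock, by
    rw [charDegree_irrOne]; exact hp.out.not_dvd_one⟩

/-- Galois conjugation of irreducible characters. -/
def galIrr (τ : ℂ ≃+* ℂ) (χ : IrrCharacter G) : IrrCharacter G :=
  ⟨fun g => τ (χ.1 g), χ.2.map_ringHom τ.toRingHom⟩

theorem galIrr_apply (τ : ℂ ≃+* ℂ) (χ : IrrCharacter G) (g : G) :
    (galIrr τ χ).1 g = τ (χ.1 g) := rfl

theorem galIrr_injective (τ : ℂ ≃+* ℂ) : Function.Injective (galIrr (G := G) τ) :=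
  fun _ _ h => Subtype.ext (funext fun g => τ.injective (congrFun (congrArg Subtype.val h) g))

theorem galIrr_irrOne (τ : ℂ ≃+* ℂ) : galIrr τ (irrOne G) = irrOne G :=
  Subtype.ext (funext fun _ => map_one τ)

theorem charDegree_galIrr (τ : ℂ ≃+* ℂ) (χ : IrrCharacter G) :
    charDegree (galIrr τ χ).1 = charDegree χ.1 :=
  H3.charDegree_eq (by rw [galIrr_apply, ← χ.2.cast_charDegree, map_natCast])

theorem cz_pow_of_coprime (g : G) {m : ℕ} (hm : m.Coprime (Nat.card G)) : cz (g ^ m) = cz g := by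
  obtain ⟨k, hk⟩ := exists_pow_eq_self_of_coprime
    (Nat.Coprime.coprime_dvd_right (orderOf_dvd_natCard g) hm)
  ext x
  rw [mem_cz, mem_cz]
  refine ⟨fun h => ?_, fun h => (Commute.pow_right h m).eq⟩
  have := (Commute.pow_right h k).eq
  rwa [hk] at this

theorem galIrr_mem_principalBlock (τ : ℂ ≃+* ℂ) {χ : IrrCharacter G}
    (h : χ ∈ principalBlock M G) : galIrr τ χ ∈ principalBlock M G := fun g => by
  obtain ⟨m, hm, h1⟩ := exists_pow_of_ringHom_char G τ.toRingHom
  have h2 := h (g ^ m)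
  have h3 : ∀ x, τ (χ.1 x) = χ.1 (x ^ m) := h1 _ χ.2.isGeneralizedCharacter
  simp only [centralChar, galIrr_apply, h3, one_pow] at h2 ⊢
  rwa [show centralizer {g ^ m} = centralizer {g} from cz_pow_of_coprime g hm] at h2

theorem galIrr_mem_hz0 (τ : ℂ ≃+* ℂ) {χ : IrrCharacter G} (h : χ ∈ hz0 M p G) :
    galIrr τ χ ∈ hz0 M p G :=
  mem_hz0.2 ⟨galIrr_mem_principalBlock τ (mem_hz0.1 h).1, by
    rw [charDegree_galIrr]; exact (mem_hz0.1 h).2⟩

theorem red_char_pElt {χ : G → ℂ} (hχ : IsCharacter G χ) {x : G} (hx : ∃ k, orderOf x = p ^ k) :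
    red M (χ x) = charDegree χ := by
  have := red_char_mul (M := M) hχ (Commute.one_right x) hx
  rwa [mul_one, ← hχ.cast_charDegree, red_natCast] at this

/-- The basic congruence for the characters of height zero in the principal block. -/
theorem sum_hz0_red (h : p ∣ Nat.card G) (g : G) :
    ∑ χ ∈ hz0 M p G, (charDegree χ.1 : Res M) * red M (χ.1 g) = 0 := by
  classical
  obtain ⟨z, hz, -⟩ := exists_ne_one_not_dvd_index_cz (G := G) h
  have h1 := congrArg (red M) ((IsPBlock.isUnion (isPBlock_principalBlock (M := M) (G := G))).weak_orthogonal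
    (p := p) (pReg_pReg g) (y := z⁻¹) (by rw [orderOf_inv, hz]))
  rw [red_zero, red_sum _ fun χ _ => mul_mem (irr_mem χ _) (conj_irr_mem χ _)] at h1
  rw [← h1]
  refine Finset.sum_subset_zero_on_sdiff (fun χ hχ => ?_) (fun χ hχ => ?_) fun χ _ => ?_
  · simpa using (mem_hz0.1 hχ).1
  · simp only [Finset.mem_sdiff, Finset.mem_filter, Finset.mem_univ, true_and, mem_hz0, not_and,
      not_not] at hχ
    rw [red_mul (irr_mem χ _) (conj_irr_mem χ _), ← χ.2.apply_inv, inv_inv,
      red_char_pElt (x := z) χ.2.isCharacter ⟨1, by rw [hz, pow_one]⟩,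
      (CharP.cast_eq_zero_iff _ p _).2 (hχ.2 hχ.1), mul_zero]
  · rw [red_mul (irr_mem χ _) (conj_irr_mem χ _), ← χ.2.apply_inv, inv_inv,
      red_char_pElt (x := z) χ.2.isCharacter ⟨1, by rw [hz, pow_one]⟩,
      ← red_char_pReg χ.2.isCharacter, mul_comm]

theorem exists_apply_eq_mul {χ : IrrCharacter G} {z : G} (hz : ¬p ∣ (cz z).index) :
    ∃ w ∈ locRing M, χ.1 z = χ.1 1 * w := by
  refine ⟨centralChar χ.1 z * ((cz z).index : ℂ)⁻¹, mul_mem (mem_locRing_of_isIntegral M
    (χ.2.isIntegral_centralChar z)) (inv_natCast_mem hz), ?_⟩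
  have h1 := χ.2.apply_one_ne_zero
  have h2 : ((cz z).index : ℂ) ≠ 0 := Nat.cast_ne_zero.2 fun e => hz (e ▸ dvd_zero p)
  rw [centralChar]
  field_simp

/-- The congruence modulo `p ^ 2` at a `p`-singular element centralizing a Sylow subgroup. -/
theorem sum_hz0_sq {z : G} (h1 : p ∣ orderOf z) (hz : ¬p ∣ (cz z).index) :
    ∃ w ∈ locRing M, ∑ χ ∈ hz0 M p G, (charDegree χ.1 : ℂ) * χ.1 z = p ^ 2 * w := by
  classical
  have h2 := (IsPBlock.isUnion (isPBlock_principalBlock (M := M) (G := G))).weak_orthogonal'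
    (p := p) not_dvd_orderOf_one h1
  rw [← Finset.sum_filter_add_sum_filter_not _ fun χ : IrrCharacter G => p ∣ charDegree χ.1,
    Finset.filter_filter, Finset.filter_filter] at h2
  have h3 : ∀ χ : IrrCharacter G, ∃ w ∈ locRing M,
      p ∣ charDegree χ.1 → χ.1 z * conj (χ.1 1) = p ^ 2 * w := fun χ => by
    by_cases h : p ∣ charDegree χ.1
    · obtain ⟨d, hd⟩ := h
      obtain ⟨w, hw, e⟩ := exists_apply_eq_mul (M := M) (χ := χ) hz
      refine ⟨d ^ 2 * w, mul_mem (pow_mem (natCast_mem _ d) 2) hw, fun _ => ?_⟩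
      rw [e, χ.2.isCharacter.conj_apply_one, ← χ.2.cast_charDegree, hd]
      push_cast; ring
    · exact ⟨0, zero_mem _, fun h' => absurd h' h⟩
  choose w hw h3 using h3
  refine ⟨-∑ χ with χ ∈ principalBlock M G ∧ p ∣ charDegree χ.1, w χ,
    neg_mem (sum_mem fun χ _ => hw χ), ?_⟩
  rw [Finset.sum_congr rfl fun χ hχ => h3 χ (Finset.mem_filter.1 hχ).2.2, ← Finset.mul_sum] at h2
  rw [mul_neg, eq_neg_iff_add_eq_zero, add_comm, ← h2]
  congr 1
  refine Finset.sum_congr (by ext χ; simp [mem_hz0]) fun χ _ => ?_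
  rw [χ.2.isCharacter.conj_apply_one, χ.2.cast_charDegree, mul_comm]

theorem dvd_card_of_ne {χ : IrrCharacter G} (hχ : χ ∈ principalBlock M G) (h1 : χ ≠ irrOne G) :
    p ∣ Nat.card G := by
  by_contra h
  have h2 := (blockOf_eq_singleton_iff (M := M) (p := p) (irrOne G)).2 (by
    rw [Nat.factorization_eq_zero_of_not_dvd h, nu, charDegree_irrOne]; simp)
  rw [principalBlock_eq, h2] at hχ
  exact h1 hχ

theorem sum_irr_eq_zero [Fintype G] {χ : IrrCharacter G} (h : χ ≠ irrOne G) : ∑ g, χ.1 g = 0 := by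
  have h1 := χ.2.classInner_of_ne (irrOne G).2 fun e => h (Subtype.ext e)
  simp only [classInner, irrOne_apply, map_one, mul_one] at h1
  exact (mul_eq_zero.1 h1).resolve_left (inv_ne_zero natCard_ne_zero)

theorem sum_mul_conj_of_ne [Fintype G] {χ ψ : IrrCharacter G} (h : χ ≠ ψ) :
    ∑ g, χ.1 g * conj (ψ.1 g) = 0 := by
  have h1 := χ.2.classInner_of_ne ψ.2 fun e => h (Subtype.ext e)
  exact (mul_eq_zero.1 h1).resolve_left (inv_ne_zero natCard_ne_zero)

theorem sum_mul_conj_self [Fintype G] (χ : IrrCharacter G) :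
    ∑ g, χ.1 g * conj (χ.1 g) = Fintype.card G := by
  have h1 := χ.2.classInner_self
  rw [classInner, inv_mul_eq_one₀ natCard_ne_zero] at h1
  rw [← h1, Nat.card_eq_fintype_card]

theorem center_facts (P : Sylow p G) {z : P} (hz : z ∈ center P) (h1 : z ≠ 1) :
    p ∣ orderOf ((z : P) : G) ∧ ¬p ∣ (cz ((z : P) : G)).index ∧
      ∃ k, orderOf ((z : P) : G) = p ^ k := by
  obtain ⟨k, hk⟩ := isPElt_of_mem P.2 z.2
  refine ⟨?_, not_dvd_index_of_sylow_le P fun x hx => mem_cz.2
    (congrArg Subtype.val (mem_center_iff.1 hz ⟨x, hx⟩)), k, hk⟩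
  rcases k with _ | k
  · exact absurd (Subtype.ext (orderOf_eq_one_iff.1 hk)) h1
  · exact hk ▸ Dvd.intro_left _ rfl

theorem card_eq_two_of_hz0 (P : Sylow p G) (h : (hz0 M p G).card = 2) : Nat.card P = 2 := by
  classical
  have := Fintype.ofFinite G
  have h1 : ((hz0 M p G).erase (irrOne G)).card = 1 := by
    rw [Finset.card_erase_of_mem irrOne_mem_hz0, h]
  obtain ⟨χ, h2⟩ := Finset.card_eq_one.1 h1
  have h3 : χ ∈ (hz0 M p G).erase (irrOne G) := h2 ▸ Finset.mem_singleton_self χ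
  obtain ⟨h4, h5⟩ := Finset.mem_erase.1 h3
  have hG := dvd_card_of_ne (p := p) (mem_hz0.1 h5).1 h4
  have h6 : ∀ g, 1 + (charDegree χ.1 : Res M) * red M (χ.1 g) = 0 := fun g => by
    have := sum_hz0_red (M := M) hG g
    rw [← Finset.add_sum_erase _ _ irrOne_mem_hz0, h2, Finset.sum_singleton,
      charDegree_irrOne] at this
    simpa using this
  have h7 : χ.1 1 = 1 := by
    by_contra h7
    obtain ⟨g, hg⟩ := χ.2.exists_eq_zero h7
    simpa [hg] using h6 g
  have h8 : charDegree χ.1 = 1 := H3.charDegree_eq (by rw [h7, Nat.cast_one])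
  have hp2 : p = 2 := by
    have := h6 1
    rw [h7, h8, red_one, Nat.cast_one, mul_one, one_add_one_eq_two] at this
    exact (Nat.prime_dvd_prime_iff_eq hp.out Nat.prime_two).1
      ((CharP.cast_eq_zero_iff (Res M) p 2).1 (by exact_mod_cast this))
  obtain ⟨l, hl⟩ := χ.2.isCharacter.exists_unitsHom h7
  have h9 : ∀ g, χ.1 g = 1 ∨ χ.1 g = -1 := fun g => by
    obtain ⟨k, hk⟩ := exists_int_of_forall_ringEquiv (χ.2.isCharacter.isIntegral g) fun τ => by
      have : galIrr τ χ ∈ (hz0 M p G).erase (irrOne G) := Finset.mem_erase.2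
        ⟨fun e => h4 (galIrr_injective τ (e.trans (galIrr_irrOne τ).symm)), galIrr_mem_hz0 τ h5⟩
      rw [h2, Finset.mem_singleton] at this
      exact congrFun (congrArg Subtype.val this) g
    have h10 := H4.norm_linear_char χ.2.isCharacter h7 g
    rw [hk, Complex.norm_intCast] at h10
    have h11 : |k| = 1 := by exact_mod_cast h10
    rcases abs_eq (zero_le_one) |>.1 h11 with e | e <;> simp [hk, e]
  have h10 := injective_of_center P.2 (l.comp (P : Subgroup G).subtype) fun z hz e => by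
    by_contra h10
    obtain ⟨h11, h12, -⟩ := center_facts P hz h10
    obtain ⟨w, hw, h13⟩ := sum_hz0_sq (M := M) h11 h12
    rw [← Finset.add_sum_erase _ _ irrOne_mem_hz0, h2, Finset.sum_singleton,
      charDegree_irrOne, h8, hl] at h13
    have h14 : l z = 1 := e
    simp only [Nat.cast_one, irrOne_apply, mul_one, h14, Units.val_one] at h13
    have h15 : (1 : ℂ) = p * w := by
      subst hp2
      push_cast at h13 ⊢
      linear_combination h13 / 2
    have h16 := congrArg (red M) h15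
    rw [red_one, red_mul (natCast_mem _ p) hw, red_natCast, CharP.cast_eq_zero, zero_mul] at h16
    exact one_ne_zero h16
  have h11 : Nat.card P ≤ Nat.card Prop := Nat.card_le_card_of_injective
    (fun x : P => χ.1 x = 1) fun x y e => h10 (Units.ext (by
      change (l x : ℂ) = l y
      have h11 : ∀ g, (l g : ℂ) = χ.1 g := fun g => by rw [hl]
      rw [h11, h11]
      have e' : χ.1 x = 1 ↔ χ.1 y = 1 := iff_of_eq e
      rcases h9 x with h | h
      · rw [h, e'.1 h]
      · rcases h9 y with h' | h'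
        · rw [h', e'.2 h']
        · rw [h, h']))
  have h12 : Nontrivial P := (nontrivial_iff_ne_bot _).2 (P.ne_bot_of_dvd_card hG)
  have h13 : 1 < Nat.card P := Finite.one_lt_card
  have h14 : Nat.card Prop = 2 := by simp
  omega

theorem int_dvd_of_red {n : ℤ} (h : red M (n : ℂ) = 0) : (p : ℤ) ∣ n := by
  rw [red_intCast] at h
  exact (CharP.intCast_eq_zero_iff (Res M) p n).1 h

theorem card_eq_three_of_hz0 (P : Sylow p G) (h : (hz0 M p G).card = 3) : Nat.card P = 3 := by
  classical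
  have := Fintype.ofFinite G
  have h1 : ((hz0 M p G).erase (irrOne G)).card = 2 := by
    rw [Finset.card_erase_of_mem irrOne_mem_hz0, h]
  obtain ⟨χ, ψ, hne, h2⟩ := Finset.card_eq_two.1 h1
  obtain ⟨hχ1, hχ⟩ := Finset.mem_erase.1 (h2 ▸ Finset.mem_insert_self χ {ψ} :
    χ ∈ (hz0 M p G).erase (irrOne G))
  obtain ⟨hψ1, hψ⟩ := Finset.mem_erase.1 (h2 ▸ Finset.mem_insert_of_mem
    (Finset.mem_singleton_self ψ) : ψ ∈ (hz0 M p G).erase (irrOne G))
  have hG := dvd_card_of_ne (p := p) (mem_hz0.1 hχ).1 hχ1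
  have hsum : ∀ {A : Type} [AddCommMonoid A] (f : IrrCharacter G → A),
      ∑ θ ∈ hz0 M p G, f θ = f (irrOne G) + f χ + f ψ := fun f => by
    rw [← Finset.add_sum_erase _ _ irrOne_mem_hz0, h2, Finset.sum_pair hne, add_assoc]
  obtain ⟨a, ha⟩ : ∃ a, a = charDegree χ.1 := ⟨_, rfl⟩
  obtain ⟨b, hb⟩ : ∃ b, b = charDegree ψ.1 := ⟨_, rfl⟩
  have ha1 : χ.1 1 = a := by rw [ha, χ.2.cast_charDegree]
  have hb1 : ψ.1 1 = b := by rw [hb, ψ.2.cast_charDegree]
  have ha0 : ¬p ∣ a := ha ▸ (mem_hz0.1 hχ).2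
  have hb0 : ¬p ∣ b := hb ▸ (mem_hz0.1 hψ).2
  have hF : ∀ g, 1 + (a : Res M) * red M (χ.1 g) + b * red M (ψ.1 g) = 0 := fun g => by
    have := sum_hz0_red (M := M) hG g
    rw [hsum, charDegree_irrOne, ← ha, ← hb] at this
    simpa using this
  have hF1 : (p : ℤ) ∣ 1 + a ^ 2 + b ^ 2 := by
    have := hF 1
    rw [ha1, hb1, red_natCast, red_natCast] at this
    refine (CharP.intCast_eq_zero_iff (Res M) p _).1 ?_
    push_cast
    linear_combination this
  have hp2 : p ≠ 2 := by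
    rintro rfl
    obtain ⟨a', rfl⟩ : Odd a := Nat.odd_iff.2 (by omega)
    obtain ⟨b', rfl⟩ : Odd b := Nat.odd_iff.2 (by omega)
    push_cast at hF1
    have : (2 : ℤ) ∣ 1 := (hF1.sub (Dvd.intro (2 * a' ^ 2 + 2 * a' + 2 * b' ^ 2 + 2 * b' + 1) rfl)).trans
      (dvd_of_eq (by ring))
    omega
  have hgal : ∀ τ : ℂ ≃+* ℂ, (galIrr τ χ = χ ∧ galIrr τ ψ = ψ) ∨
      (galIrr τ χ = ψ ∧ galIrr τ ψ = χ) := fun τ => by
    have h3 : ∀ θ, θ ≠ irrOne G → θ ∈ hz0 M p G → galIrr τ θ = χ ∨ galIrr τ θ = ψ :=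
      fun θ h4 h5 => by
        have : galIrr τ θ ∈ (hz0 M p G).erase (irrOne G) := Finset.mem_erase.2
          ⟨fun e => h4 (galIrr_injective τ (e.trans (galIrr_irrOne τ).symm)), galIrr_mem_hz0 τ h5⟩
        rwa [h2, Finset.mem_insert, Finset.mem_singleton] at this
    have h4 : galIrr τ χ ≠ galIrr τ ψ := fun e => hne (galIrr_injective τ e)
    rcases h3 χ hχ1 hχ with e | e <;> rcases h3 ψ hψ1 hψ with e' | e'
    · exact absurd (e.trans e'.symm) h4
    · exact Or.inl ⟨e, e'⟩
    · exact Or.inr ⟨e, e'⟩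
    · exact absurd (e.trans e'.symm) h4
  have hval : ∀ {τ : ℂ ≃+* ℂ} {θ θ' : IrrCharacter G}, galIrr τ θ = θ' →
      ∀ g, τ (θ.1 g) = θ'.1 g := fun e g => congrFun (congrArg Subtype.val e) g
  have hcase : (a = b ∧ ∃ s : G → ℤ, ∀ g, χ.1 g + ψ.1 g = s g) ∨
      ∃ u v : G → ℤ, (∀ g, χ.1 g = u g) ∧ ∀ g, ψ.1 g = v g := by
    by_cases h3 : ∀ τ : ℂ ≃+* ℂ, galIrr τ χ = χ ∧ galIrr τ ψ = ψ
    · choose u hu using fun g => exists_int_of_forall_ringEquiv (χ.2.isCharacter.isIntegral g)
        fun τ => hval (h3 τ).1 g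
      choose v hv using fun g => exists_int_of_forall_ringEquiv (ψ.2.isCharacter.isIntegral g)
        fun τ => hval (h3 τ).2 g
      exact Or.inr ⟨u, v, hu, hv⟩
    · obtain ⟨τ, hτ⟩ := not_forall.1 h3
      refine Or.inl ⟨by rw [ha, hb, ← ((hgal τ).resolve_left hτ).1, charDegree_galIrr], ?_⟩
      choose s hs using fun g => exists_int_of_forall_ringEquiv
        ((χ.2.isCharacter.isIntegral g).add (ψ.2.isCharacter.isIntegral g)) fun σ => by
          rw [map_add]
          rcases hgal σ with ⟨e, e'⟩ | ⟨e, e'⟩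
          · rw [hval e, hval e']
          · rw [hval e, hval e', add_comm]
      exact ⟨s, hs⟩
  have s1 := sum_irr_eq_zero hχ1
  have s2 := sum_irr_eq_zero hψ1
  have s3 := sum_mul_conj_self χ
  have s4 := sum_mul_conj_self ψ
  have s5 := sum_mul_conj_of_ne hne
  have s6 := sum_mul_conj_of_ne hne.symm
  have hp3 : p = 3 := by
    rcases hcase with ⟨rfl, s, hs⟩ | ⟨u, v, hu, hv⟩
    · refine numA hp.out s a ?_ (fun g => ?_) (hF1.trans (dvd_of_eq (by ring)))
      · have : ∑ g, ((s g : ℂ)) ^ 2 = 2 * Fintype.card G := by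
          rw [Finset.sum_congr rfl (g := fun g => χ.1 g * conj (χ.1 g) + ψ.1 g * conj (ψ.1 g) +
            χ.1 g * conj (ψ.1 g) + ψ.1 g * conj (χ.1 g)) fun g _ => ?_]
          · simp only [Finset.sum_add_distrib, s3, s4, s5, s6]; ring
          · have h3 := congrArg conj (hs g)
            rw [map_add, map_intCast] at h3
            rw [sq]
            nth_rewrite 1 [← hs g]
            rw [← h3]; ring
        exact_mod_cast this
      · refine (CharP.intCast_eq_zero_iff (Res M) p _).1 ?_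
        have h3 := congrArg (red M) (hs g)
        rw [red_add (irr_mem χ g) (irr_mem ψ g), red_intCast] at h3
        push_cast
        linear_combination hF g - a * h3
    · simp only [hu, hv, map_intCast, ← sq] at s1 s2 s3 s4
      refine numB hp.out hp2 u v a b (by exact_mod_cast s3) (by exact_mod_cast s4)
        (by exact_mod_cast s1) (by exact_mod_cast s2) (fun g => ?_) 1
        (by rw [hu] at ha1; exact_mod_cast ha1) (by rw [hv] at hb1; exact_mod_cast hb1)
      refine (CharP.intCast_eq_zero_iff (Res M) p _).1 ?_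
      have h3 := hF g
      rw [hu, hv, red_intCast, red_intCast] at h3
      push_cast
      exact h3
  subst hp3
  obtain ⟨ε, a', hε, haε⟩ : ∃ ε a' : ℤ, (ε = 1 ∨ ε = -1) ∧ (a : ℤ) = ε + 3 * a' := by
    rcases (by omega : a % 3 = 1 ∨ a % 3 = 2) with e | e
    · exact ⟨1, a / 3, Or.inl rfl, by omega⟩
    · exact ⟨-1, a / 3 + 1, Or.inr rfl, by omega⟩
  obtain ⟨δ, b', hδ, hbδ⟩ : ∃ δ b' : ℤ, (δ = 1 ∨ δ = -1) ∧ (b : ℤ) = δ + 3 * b' := by
    rcases (by omega : b % 3 = 1 ∨ b % 3 = 2) with e | e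
    · exact ⟨1, b / 3, Or.inl rfl, by omega⟩
    · exact ⟨-1, b / 3 + 1, Or.inr rfl, by omega⟩
  have hε2 : ε ^ 2 = 1 := by rcases hε with e | e <;> simp [e]
  have hδ2 : δ ^ 2 = 1 := by rcases hδ with e | e <;> simp [e]
  have hεc : (ε : ℂ) ^ 2 = 1 := by exact_mod_cast hε2
  have hδc : (δ : ℂ) ^ 2 = 1 := by exact_mod_cast hδ2
  have h30 : (3 : Res M) = 0 := by exact_mod_cast CharP.cast_eq_zero (Res M) 3
  have haR : (a : Res M) = ε := by
    have := congrArg (Int.cast : ℤ → Res M) haε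
    push_cast at this
    rw [this, h30, zero_mul, add_zero]
  have hbR : (b : Res M) = δ := by
    have := congrArg (Int.cast : ℤ → Res M) hbδ
    push_cast at this
    rw [this, h30, zero_mul, add_zero]
  have haC : (a : ℂ) = ε + 3 * a' := by exact_mod_cast haε
  have hbC : (b : ℂ) = δ + 3 * b' := by exact_mod_cast hbδ
  obtain ⟨T, hT⟩ : ∃ T : G → ℤ, ∀ g, 1 + ε * χ.1 g + δ * ψ.1 g = T g := by
    rcases hcase with ⟨rfl, s, hs⟩ | ⟨u, v, hu, hv⟩
    · have : δ = ε := by omega
      subst this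
      exact ⟨fun g => 1 + δ * s g, fun g => by push_cast; rw [← hs]; ring⟩
    · exact ⟨fun g => 1 + ε * u g + δ * v g, fun g => by push_cast; rw [hu, hv]⟩
  have hm1 : ∀ (c : ℤ) (θ : IrrCharacter G) g, (c : ℂ) * θ.1 g ∈ locRing M := fun c θ g =>
    mul_mem (intCast_mem _ c) (irr_mem θ g)
  have hm2 : ∀ (c : ℤ) (θ : IrrCharacter G) g, red M ((c : ℂ) * θ.1 g) = c * red M (θ.1 g) :=
    fun c θ g => by rw [red_mul (intCast_mem _ c) (irr_mem θ g), red_intCast]
  have hT3 : ∀ g, T g = 0 ∨ T g = 3 := by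
    refine numT T ?_ ?_ fun g => ?_
    · have : ∑ g, (T g : ℂ) = Fintype.card G := by
        simp only [← hT, Finset.sum_add_distrib, ← Finset.mul_sum, s1, s2]
        simp
      exact_mod_cast this
    · have s1' : ∑ g, conj (χ.1 g) = 0 := by rw [← map_sum, s1, map_zero]
      have s2' : ∑ g, conj (ψ.1 g) = 0 := by rw [← map_sum, s2, map_zero]
      have : ∑ g, ((T g : ℂ)) ^ 2 = 3 * Fintype.card G := by
        rw [Finset.sum_congr rfl (g := fun g => 1 + ε * χ.1 g + δ * ψ.1 g + ε * conj (χ.1 g) +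
          δ * conj (ψ.1 g) + χ.1 g * conj (χ.1 g) + ψ.1 g * conj (ψ.1 g) +
          ε * δ * (χ.1 g * conj (ψ.1 g)) + ε * δ * (ψ.1 g * conj (χ.1 g))) fun g _ => ?_]
        · simp only [Finset.sum_add_distrib, ← Finset.mul_sum, s1, s2, s1', s2', s3, s4, s5, s6]
          simp; ring
        · have h3 := congrArg conj (hT g)
          simp only [map_add, map_mul, map_intCast, map_one] at h3
          rw [sq]
          nth_rewrite 1 [← hT g]
          rw [← h3]
          linear_combination (χ.1 g * conj (χ.1 g)) * hεc + (ψ.1 g * conj (ψ.1 g)) * hδc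
      exact_mod_cast this
    · refine int_dvd_of_red (M := M) (p := 3) ?_
      rw [← hT, red_add (add_mem (one_mem _) (hm1 _ _ _)) (hm1 _ _ _),
        red_add (one_mem _) (hm1 _ _ _), hm2, hm2, red_one, ← haR, ← hbR]
      exact hF g
  have hT1 : T 1 = 3 + 3 * (ε * a' + δ * b') := by
    have := hT 1
    rw [ha1, hb1] at this
    have h3 : 1 + ε * a + δ * b = T 1 := by exact_mod_cast this
    rw [← h3, haε, hbδ]
    linear_combination hε2 + hδ2
  have hTz : ∀ z ∈ center P, z ≠ 1 → T ((z : P) : G) + T 1 = 3 := fun z hz h3 => by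
    obtain ⟨h4, h5, h6⟩ := center_facts P hz h3
    obtain ⟨w, hw, h7⟩ := sum_hz0_sq (M := M) h4 h5
    rw [hsum, charDegree_irrOne, ← ha, ← hb, haC, hbC] at h7
    obtain ⟨t, ht⟩ : ∃ t : ℤ, T z = 3 * t := by
      rcases hT3 z with e | e
      · exact ⟨0, e⟩
      · exact ⟨1, e⟩
    have h8 := hT z
    rw [ht] at h8
    simp only [Nat.cast_one, irrOne_apply, mul_one] at h7
    have h9 : (t : ℂ) + a' * χ.1 z + b' * ψ.1 z = (3 : ℕ) * w := by
      push_cast at h7 h8 ⊢
      linear_combination (h7 - h8) / 3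
    have h10 := congrArg (red M) h9
    rw [red_add (add_mem (intCast_mem _ t) (hm1 _ _ _)) (hm1 _ _ _),
      red_add (intCast_mem _ t) (hm1 _ _ _), hm2, hm2, red_mul (natCast_mem _ 3) hw, red_natCast,
      CharP.cast_eq_zero, zero_mul, red_char_pElt χ.2.isCharacter h6,
      red_char_pElt ψ.2.isCharacter h6, ← ha, ← hb, haR, hbR, red_intCast] at h10
    have h11 : ((3 : ℕ) : ℤ) ∣ t + (ε * a' + δ * b') := by
      refine (CharP.intCast_eq_zero_iff (Res M) 3 _).1 ?_
      push_cast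
      linear_combination h10
    have h12 := hT3 z
    have h13 := hT3 1
    generalize ε * a' + δ * b' = c at h11 hT1
    omega
  have hgen : IsGeneralizedCharacter P fun x : P => (T x : ℂ) := by
    have := ((isGeneralizedCharacter_one.add (χ.2.isGeneralizedCharacter.intCast_smul ε)).add
      (ψ.2.isGeneralizedCharacter.intCast_smul δ)).restrict (P : Subgroup G)
    simp only [← hT]
    exact this
  have : Nontrivial P := (nontrivial_iff_ne_bot _).2 (P.ne_bot_of_dvd_card hG)
  rcases hT3 1 with e | e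
  · refine card_eq_three_of_gen P.2 ((isGeneralizedCharacter_one.intCast_smul 3).sub hgen)
      (fun x => ?_) (by simp [e]) fun z hz h3 => ?_
    · rcases hT3 x with e' | e' <;> simp [e']
    · have := hTz z hz h3
      have h4 : T z = 3 := by omega
      simp [h4]
  · refine card_eq_three_of_gen P.2 hgen (fun x => ?_) (by simp [e]) fun z hz h3 => ?_
    · rcases hT3 x with e' | e' <;> simp [e']
    · have := hTz z hz h3
      have h4 : T z = 0 := by omega
      simp [h4]

theorem card_hz0_of_card (P : Sylow p G) (hc : Nat.card P = p) :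
    ∃ e : ℕ, e ∣ p - 1 ∧ (hz0 M p G).card = e + (p - 1) / e := by
  classical
  obtain ⟨h1, h2⟩ := principal_defect_one (M := M) hc
  have h3 := (frobSyl_of_card hc).card_Orb
  have h4 : (cP P).relIndex (nP P) ∣ p - 1 := Dvd.intro_left (Nat.card (Orb P)) (by
    have : Nat.card (sP P) = p := hc
    omega)
  refine ⟨_, h4, ?_⟩
  rw [← h1, ← card_hz0]
  generalize (cP P).relIndex (nP P) = e at h2 h4
  have h5 : ¬(p : ℤ) ∣ e := fun h => by
    have h6 : p ∣ p - 1 := (Int.natCast_dvd_natCast.1 h).trans h4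
    have := hp.out.one_lt
    exact absurd (Nat.le_of_dvd (by omega) h6) (by omega)
  refine Nat.card_congr (Equiv.subtypeEquivRight fun χ => and_iff_left_of_imp fun hχ h6 => ?_)
  have h7 : (p : ℤ) ∣ charDegree χ.1 := Int.natCast_dvd_natCast.2 h6
  have h8 := not_dvd_one_int hp.out
  rcases h2 χ hχ with h | h | h | h
  · exact h8 (by simpa using h.dvd.add h7)
  · exact h8 (by simpa using h.dvd.add h7)
  · exact h5 (by simpa using h.dvd.add h7)
  · exact h5 (by simpa using h.dvd.add h7)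

theorem hz0_main (P : Sylow p G) (k : ℕ) (hk : k = 2 ∨ k = 3) :
    Nat.card {χ : IrrCharacter G // χ ∈ principalBlock M G ∧ ¬p ∣ charDegree (χ : G → ℂ)} = k ↔
      Nat.card P = k := by
  rw [card_hz0]
  refine ⟨fun h => ?_, fun h => ?_⟩
  · rcases hk with rfl | rfl
    · exact card_eq_two_of_hz0 P h
    · exact card_eq_three_of_hz0 P h
  · have hk' : k.Prime := by rcases hk with rfl | rfl <;> norm_num
    have h1 : p = k := (Nat.prime_dvd_prime_iff_eq hp.out hk').1
      (h ▸ P.2.card_eq_or_dvd.resolve_left fun e => hk'.one_lt.ne' (h.symm.trans e))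
    subst h1
    obtain ⟨e, h2, h3⟩ := card_hz0_of_card (M := M) P h
    rw [h3]
    rcases hk with rfl | rfl
    · rw [Nat.dvd_one.1 h2]
    · rcases (Nat.dvd_prime Nat.prime_two).1 h2 with rfl | rfl <;> rfl

end Cfsg.Agent.Hz
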